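/-
KS12, part G: two different maximal 2-local subgroups over `T` give an `S₄`-amalgam (12.2.4 - 12.2.7).
-/
import Cfsg.Agent.Even.KS12.F
import Cfsg.Agent.Even.AmS3
import Cfsg.Agent.S1313

set_option autoImplicit false

open Cfsg Subgroup CL.Even CL.Loc
open CL.Grp (IsSylowIn SubnIn pPrimeCoreOf)
open scoped commutatorElement

namespace CL.KS12

variable {G : Type*} [Group G] [Finite G] {T L K K₁ K₂ L₁ L₂ : Subgroup G}

/-- `Z₀ ∩ C(K)` -/
abbrev dD (T K : Subgroup G) : Subgroup G := 𝛀[2] (𝐉[2] T) ⊓ 𝒞(K)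

omit [Finite G] in
theorem cj_zp (g d : G) : cj g (zpowers d) = zpowers (g * d * g⁻¹) := by rw [MonoidHom.map_zpowers]; rfl

theorem two_coset {Z D : Subgroup G} (hZ : IsElementaryAbelian 2 Z) (hi : D.relIndex Z = 2) (hc : Nat.card D ≤ 2)
    {a b c : G} (ha : a ∈ Z) (hb : b ∈ Z) (hc' : c ∈ Z) (na : a ∉ D) (nb : b ∉ D) (nc : c ∉ D) (hab : a ≠ b) :
    c = a ∨ c = b := by
  have m : ∀ x ∈ Z, ∀ y ∈ Z, x * y = 1 → y = x := fun x hx y _ e => by
    have := ea_pow hZ hx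
    rw [pow_two] at this
    exact mul_left_cancel (e.trans this.symm)
  by_contra hn
  push Not at hn
  exact hn.2 (mul_left_cancel (eq_of_card_le_two hc ((mul_mem_two hi ha hc').2 (iff_of_false na nc))
    ((mul_mem_two hi ha hb).2 (iff_of_false na nb)) (fun e => hn.1 (m a ha c hc' e)) fun e => hab (m a ha b hb e).symm))

theorem elem_of_two {D : Subgroup G} (hD : IsPGroup 2 D) (hc : Nat.card D ≤ 2) : IsElementaryAbelian 2 D := by
  by_cases h0 : D = ⊥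
  · rw [h0]; exact elem_bot
  have := (one_lt_card_iff_ne_bot _).2 (ozc_ne_bot hD h0)
  rw [← eq_of_le_of_card_ge (ozc_le (p := 2) D) (by omega)]
  exact ozc_elem D

theorem relIndex_cent_le {W : Subgroup G} (h4 : Nat.card W = 4) : 𝒞(W).relIndex 𝒩(W) ≤ 6 := by
  have h1 := Cfsg.Agent.S1313.card_mul_card_aut_le W
  have : Finite (MulAut W) := Finite.of_injective (fun e : MulAut W => e.toEquiv) MulEquiv.toEquiv_injective
  have h2 : 𝒞(W).relIndex 𝒩(W) ≤ Nat.card (MulAut W) := by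
    rw [relIndex, ← normalizerMonoidHom_ker, index_ker]
    exact card_le_card_group _
  rw [h4] at h1
  norm_num [Nat.factorial] at h1
  omega

theorem JC.idx_d (h : IsJComponent T K) (hT : IsPGroup 2 T) : (dD T K).relIndex (𝛀[2] (𝐉[2] T)) = 2 := by
  have h1 := CL.Grp.card_mul_relIndex (inf_le_left : dD T K ≤ _)
  rw [JC.card_z0 h hT, mul_comm 2] at h1
  exact Nat.eq_of_mul_eq_mul_left Nat.card_pos h1

namespace Uq

variable (u : Uq T K L)
include u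

omit [Finite G] in
theorem norm_le : 𝒩(L) ≤ L := (norm_le_norm_core L).trans (max_norm_core u.mx).le

omit [Finite G] in
theorem eq_of_le {T' K' L' : Subgroup G} (u' : Uq T' K' L') (e : 𝐉[2] T' = 𝐉[2] T) (h : K' ≤ L) : L' = L :=
  u.mx.2 _ u'.mx.1 (u'.uq L u.mx.1 h (e ▸ (thompsonSubgroupOf_le T).trans u.syl.le))

omit [Finite G] in
theorem cz_le {d : G} (hd : d ∈ dD T K) (h1 : d ≠ 1) : 𝒞(zpowers d) ≤ L :=
  (cent_le_norm _).trans (u.uq _ (loc_norm ((ozc_isP _).to_le (zpowers_le.2 hd.1)) (by rwa [Ne, zpowers_eq_bot]))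
    ((cz_comm.2 hd.2).trans (cent_le_norm _)) ((cz_comm.2 (ozc_le_cent _ hd.1)).trans (cent_le_norm _)))

theorem om_not (z : ZN G) : ¬ 𝛀[2] T ≤ 𝒞(K) := fun e =>
  JC.not_le_norm u.jc u.syl.isPGroup (thompsonSubgroupOf_le T)
    ((le_inf u.le (le_centralizer_iff.1 e)).trans (z.lh_loc u.mx.1 u.syl).cz)

variable (hK : IsJComponent T K₂) (hn : ¬ K₂ ≤ L)
include hK hn

theorem card_d : Nat.card (dD T K) ≤ 2 ∧ Nat.card (dD T K₂) ≤ 2 := by
  have h1 : dD T K ⊓ dD T K₂ = ⊥ := (eq_bot_iff_forall _).2 fun d hd => by_contra fun e =>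
    hn ((cz_comm.2 hd.2.2).trans (u.cz_le hd.1 e))
  have h2 := CL.Grp.card_sup_of_inf_eq_bot (ea_le_normalizer_of_le (ozc_elem _) inf_le_left inf_le_left) h1
  have h3 := h2.ge.trans (card_le_of_le (sup_le inf_le_left inf_le_left))
  have h4 := JC.card_z0 u.jc u.syl.isPGroup
  have h5 := JC.card_z0 hK u.syl.isPGroup
  rw [h4, mul_comm 2] at h3
  have := Nat.le_of_mul_le_mul_left h3 Nat.card_pos
  simp only [dD] at *
  omega

theorem le_cent_d (z : ZN G) : T ≤ 𝒞(dD T K₂) := by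
  intro t ht d hd
  by_contra hne
  obtain ⟨a, ha, ha'⟩ := SetLike.not_le_iff_exists.1 (u.om_not z)
  have hd1 : d ≠ 1 := fun e => hne (by simp [e])
  have h1 : t * d * t⁻¹ ∈ 𝛀[2] (𝐉[2] T) := conj_mem (le_norm_ozc (le_normalizer_thompsonSubgroupOf T) ht) hd.1
  have h2 : t * a = a * t := (mem_ozc.1 ha).2.1 t ht
  rcases two_coset (ozc_elem _) (JC.idx_d u.jc u.syl.isPGroup) (u.card_d hK hn).1 hd.1 h1 (ozc_le_zj T ha)
    (fun e => hn ((cz_comm.2 hd.2).trans (u.cz_le e hd1)))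
    (fun e => hn (by
      have h3 := u.cz_le e (by rwa [Ne, conj_eq_one_iff])
      rw [← cj_zp, ← cj_cent,
        cj_le_iff, cj_eq (inv_mem (le_normalizer (u.syl.le ht)))] at h3
      exact (cz_comm.2 hd.2).trans h3))
    (fun e => ha' e.2) (fun e => hne (by rw [eq_mul_inv_iff_mul_eq] at e; exact e)) with e | e
  · exact hne (e ▸ h2.symm)
  · rw [e, inv_mul_cancel_right, mul_right_inj, mul_inv_eq_iff_eq_mul] at h2
    exact hne h2.symm

end Uq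

/-- two components with different maximal 2-local overgroups -/
structure Pr (T K₁ L₁ K₂ L₂ : Subgroup G) : Prop where
  z : ZN G
  u₁ : Uq T K₁ L₁
  u₂ : Uq T K₂ L₂
  ne : L₁ ≠ L₂

namespace Pr

variable (h : Pr T K₁ L₁ K₂ L₂)
include h

omit [Finite G] in
theorem symm : Pr T K₂ L₂ K₁ L₁ := ⟨h.z, h.u₂, h.u₁, h.ne.symm⟩

omit [Finite G] in
theorem not_le : ¬ K₂ ≤ L₁ := fun e => h.ne (h.u₁.eq_of_le h.u₂ rfl e).symm

omit [Finite G] in
theorem isP : IsPGroup 2 T := h.u₁.syl.isPGroup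

omit [Finite G] in
theorem jc : IsJComponent T K₁ := h.u₁.jc

omit [Finite G] in
theorem k3 : K3 K₁ := JC.k3 h.jc

theorem lh : LH T L₁ := h.z.lh_loc h.u₁.mx.1 h.u₁.syl

theorem card_d : Nat.card (dD T K₁) ≤ 2 := (h.u₁.card_d h.u₂.jc h.not_le).1

theorem om_eq : 𝛀[2] T = 𝛀[2] (𝐉[2] T) := by
  refine le_antisymm (ozc_le_zj T) (le_ozc (ozc_elem _) ((ozc_le _).trans (thompsonSubgroupOf_le T)) fun y hy => ?_)
  obtain ⟨a, ha, ha'⟩ := SetLike.not_le_iff_exists.1 (h.u₁.om_not h.z)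
  have h1 := le_centralizer_iff.1 (h.u₂.le_cent_d h.jc h.symm.not_le h.z)
  by_cases e : y ∈ dD T K₁
  · exact h1 e
  · exact (mul_mem_cancel_right (ozc_le_cent _ ha)).1 (h1 ((mul_mem_two (JC.idx_d h.jc h.isP) hy (ozc_le_zj T ha)).2
      (iff_of_false e fun e' => ha' e'.2)))

theorem t_le_norm : T ≤ 𝒩(K₁) := fun t ht => h.lh.mem_norm h.jc h.u₁.le (h.u₁.syl.le ht) fun e => by
  have h1 := JC.card_zw h.jc h.isP
  rw [← h.om_eq, show 𝛀[2] T ⊓ wOf K₁ = ⊥ from eq_bot_iff.2 fun w hw => e.le (mem_inf.2 ⟨hw.2, mem_cj.2 (by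
    rw [mul_assoc, ← ozc_le_cent _ hw.1 t ht, inv_mul_cancel_left]; exact hw.2)⟩)] at h1
  simp at h1

theorem p_le : K₁ ⊔ T ≤ L₁ := sup_le h.u₁.le h.u₁.syl.le

theorem p_syl : IsSylowIn 2 T (K₁ ⊔ T) := h.u₁.syl.of_le le_sup_right h.p_le

theorem q_le_core : pCoreOf 2 L₁ ≤ pCoreOf 2 (K₁ ⊔ T) := core_le_core_of_le (h.lh.q_le.trans le_sup_right) h.p_le

theorem cent_core : 𝒞(pCoreOf 2 (K₁ ⊔ T)) ≤ pCoreOf 2 (K₁ ⊔ T) :=
  (cent_mono h.q_le_core).trans ((h.z.cent_le h.u₁.mx.1).trans h.q_le_core)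

theorem core_p : pCoreOf 2 (K₁ ⊔ T) = T ⊓ rK K₁ := by
  have hU : pCoreOf 2 K₁ ≤ T ⊓ rK K₁ :=
    le_inf ((h.lh.core_le_q h.jc h.u₁.le).trans h.lh.q_le) ((core_le _).trans h.k3.le_rK)
  refine le_antisymm (le_inf (core_le_syl h.p_syl) (le_cmod ((core_le_syl h.p_syl).trans (le_norm_core h.t_le_norm))
    (h.k3.le_core_of ((core_isP _).to_le (commutator_le_of_le_norm' (le_sup_left.trans (self_le_norm_core _))))
      (commutator_le_of_le_norm ((core_le_syl h.p_syl).trans h.t_le_norm)))))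
    (le_core (inf_le_left.trans le_sup_right) (h.isP.to_le inf_le_left) (sup_le (le_norm_of_commutator_le ?_)
      (le_norm_inf le_normalizer (h.t_le_norm.trans (norm_le_norm_rK _)))))
  rw [commutator_comm]
  exact (commutator_le_of_le_cmod inf_le_right).trans hU

theorem idx_t : T.relIndex (K₁ ⊔ T) = 3 := by
  have h1 : T ⊓ K₁ = pCoreOf 2 K₁ := le_antisymm (h.k3.le_core_of (h.isP.to_le inf_le_left) inf_le_right)
    (le_inf ((h.lh.core_le_q h.jc h.u₁.le).trans h.lh.q_le) (core_le _))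
  have h2 := CL.Grp.card_sup_mul_card_inf h.t_le_norm
  have h3 := CL.Grp.card_mul_relIndex (core_le (p := 2) K₁)
  have h4 := CL.Grp.card_mul_relIndex (le_sup_right : T ≤ K₁ ⊔ T)
  rw [h1, sup_comm, ← h3, h.k3.idx, ← h4, mul_comm _ 3, ← mul_assoc] at h2
  exact Nat.eq_of_mul_eq_mul_left Nat.card_pos (Nat.eq_of_mul_eq_mul_right Nat.card_pos h2)

theorem idx_core : (pCoreOf 2 (K₁ ⊔ T)).relIndex T = 2 := by
  rw [h.core_p, inf_relIndex_left,
    h.k3.relIndex_rK h.t_le_norm fun e => JC.not_le_rK h.jc ((thompsonSubgroupOf_le T).trans e)]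

theorem idx_six : (pCoreOf 2 (K₁ ⊔ T)).relIndex (K₁ ⊔ T) = 6 := by
  rw [← relIndex_mul_relIndex _ T _ (core_le_syl h.p_syl) le_sup_right, h.idx_core, h.idx_t]

theorem eq_bot {N : Subgroup G} (hN : IsPGroup 2 N) (h1 : K₁ ≤ 𝒩(N)) (h2 : K₂ ≤ 𝒩(N)) (h3 : T ≤ 𝒩(N)) : N = ⊥ :=
  by_contra fun e => h.not_le (h2.trans (h.u₁.uq _ (loc_norm hN e) h1 ((thompsonSubgroupOf_le T).trans h3)))

theorem p_inf : (K₁ ⊔ T) ⊓ (K₂ ⊔ T) = T :=
  (CL.Grp.eq_or_eq_of_relIndex_prime (le_inf le_sup_right le_sup_right) inf_le_left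
    (h.idx_t ▸ Nat.prime_three)).resolve_right fun e =>
      h.symm.not_le (le_sup_left.trans (e.ge.trans (inf_le_right.trans h.symm.p_le)))

theorem iso_p : (Nonempty (↥(K₁ ⊔ T) ≃* Equiv.Perm (Fin 4)) ∧ Nonempty (↥(K₂ ⊔ T) ≃* Equiv.Perm (Fin 4))) ∨
    (Nonempty (↥(K₁ ⊔ T) ≃* Multiplicative (ZMod 2) × Equiv.Perm (Fin 4)) ∧
      Nonempty (↥(K₂ ⊔ T) ≃* Multiplicative (ZMod 2) × Equiv.Perm (Fin 4))) := by
  set H := (K₁ ⊔ T) ⊔ (K₂ ⊔ T) with hH
  have hT : T ≤ H := le_sup_right.trans le_sup_left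
  have e0 : (K₁ ⊔ T).subgroupOf H ⊓ (K₂ ⊔ T).subgroupOf H = T.subgroupOf H := by
    rw [← comap_subtype, ← comap_subtype, ← comap_inf, h.p_inf, comap_subtype]
  have f : ∀ {K₁ K₂ L₁ L₂ : Subgroup G}, Pr T K₁ L₁ K₂ L₂ → K₁ ⊔ T ≤ H →
      (IsPGroup 2 (T.subgroupOf H) ∧ (T.subgroupOf H).relIndex ((K₁ ⊔ T).subgroupOf H) = 3 ∧
        ¬ (K₁ ⊔ T).subgroupOf H ≤ 𝒩(T.subgroupOf H)) ∧
      (K₁ ⊔ T).subgroupOf H ⊓ 𝒞(pCoreOf 2 ((K₁ ⊔ T).subgroupOf H)) ≤ pCoreOf 2 ((K₁ ⊔ T).subgroupOf H) ∧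
      ¬ (K₁ ⊔ T).subgroupOf H ≤ 𝒞(CL.Am.omZ 2 (T.subgroupOf H)) := by
    intro K₁ K₂ L₁ L₂ h hle
    refine ⟨⟨h.isP.comap_subtype, by rw [relIndex_subgroupOf hle, h.idx_t], fun e => ?_⟩, fun x hx => ?_, fun e => ?_⟩
    · rw [← map_norm_of_injective H.subtype_injective, map_subgroupOf_eq_of_le hle, map_subgroupOf_eq_of_le hT] at e
      exact JC.not_le_norm h.jc h.isP (thompsonSubgroupOf_le T) (le_sup_left.trans e)
    · have h1 := (map_cent_of_injective H.subtype_injective).2 (zpowers_le.2 hx.2)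
      rw [CL.Grp.pCoreOf_subgroupOf_map hle, MonoidHom.map_zpowers, zpowers_le] at h1
      have h2 := h.cent_core h1
      rw [← CL.Grp.pCoreOf_subgroupOf_map hle] at h2
      exact (mem_map_iff_mem H.subtype_injective).1 h2
    · refine h.u₁.om_not h.z fun a ha k hk => ?_
      obtain ⟨a1, a2, a3⟩ := mem_ozc.1 ha
      have := e (x := ⟨k, hle (mem_sup_left hk)⟩) (mem_sup_left hk) ⟨a, hT a1⟩
        (mem_ozc.2 ⟨a1, fun t ht => Subtype.ext (a2 t ht), Subtype.ext a3⟩)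
      exact (congrArg Subtype.val this).symm
  obtain ⟨a1, a2, a3⟩ := f h le_sup_left
  obtain ⟨b1, b2, b3⟩ := f h.symm le_sup_right
  have hs := ((CL.Am.tri_of (M₁ := (K₁ ⊔ T).subgroupOf H) (M₂ := (K₂ ⊔ T).subgroupOf H)
    (by rw [← subgroupOf_sup le_sup_left le_sup_right, subgroupOf_self]) (fun N k1 k2 => ?_)
    (e0 ▸ a1) (e0 ▸ b1)).tri2 a2 b2).s4 (e0 ▸ a3) (e0 ▸ b3)
  · have i1 := subgroupOfEquivOfLe (le_sup_left : K₁ ⊔ T ≤ H)
    have i2 := subgroupOfEquivOfLe (le_sup_right : K₂ ⊔ T ≤ H)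
    rcases hs with ⟨⟨e1⟩, ⟨e2⟩⟩ | ⟨⟨e1⟩, ⟨e2⟩⟩
    · exact Or.inl ⟨⟨i1.symm.trans e1⟩, ⟨i2.symm.trans e2⟩⟩
    · exact Or.inr ⟨⟨i1.symm.trans e1⟩, ⟨i2.symm.trans e2⟩⟩
  · have k3 : H ≤ 𝒩(N.map H.subtype) := by
      have := (map_norm_of_injective H.subtype_injective).2 (normal_iff_top_le.1 k2)
      rwa [← MonoidHom.range_eq_map, range_subtype] at this
    rw [← map_eq_bot_iff_of_injective _ H.subtype_injective]
    exact h.eq_bot ((a1.1.to_le (e0 ▸ k1)).map _) ((le_sup_left.trans le_sup_left).trans k3)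
      ((le_sup_left.trans le_sup_right).trans k3) (hT.trans k3)

theorem card_core : Nat.card (pCoreOf 2 (K₁ ⊔ T)) = 4 ∨ Nat.card (pCoreOf 2 (K₁ ⊔ T)) = 8 := by
  have h1 := CL.Grp.card_mul_relIndex (core_le (p := 2) (K₁ ⊔ T))
  rw [h.idx_six] at h1
  have c : Nat.card (Equiv.Perm (Fin 4)) = 24 := by rw [Nat.card_perm]; simp [Nat.factorial]
  rcases h.iso_p with ⟨⟨e⟩, -⟩ | ⟨⟨e⟩, -⟩ <;> rw [Nat.card_congr e.toEquiv] at h1
  · omega
  · rw [Nat.card_prod, c, show Nat.card (Multiplicative (ZMod 2)) = 2 by simp] at h1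
    omega

theorem w_le_q : wOf K₁ ≤ pCoreOf 2 L₁ := (w_le_core _).trans (h.lh.core_le_q h.jc h.u₁.le)

theorem core_elem : IsElementaryAbelian 2 (pCoreOf 2 (K₁ ⊔ T)) := by
  set Q := pCoreOf 2 (K₁ ⊔ T) with hQ
  have h1 : wOf K₁ ≤ Q := h.w_le_q.trans h.q_le_core
  have h2 : Q ≤ 𝒞(wOf K₁) := h.k3.le_cent_w (JC.card h.jc) (core_isP _)
    ((core_le_syl h.p_syl).trans h.t_le_norm) (h.core_p.le.trans inf_le_right)
  obtain ⟨x, hx, hx', ho⟩ := h.k3.exists_x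
  have hxQ : x ∈ 𝒩(Q) := self_le_norm_core _ (mem_sup_left hx)
  have hxW : x ∈ 𝒩(wOf K₁) := norm_le_norm_w _ (le_normalizer hx)
  have h3 := CL.Grp.card_mul_relIndex h1
  rw [JC.card h.jc] at h3
  rcases h.card_core with e | e
  · rw [← eq_of_le_of_card_ge h1 (by rw [JC.card h.jc, ← e])]; exact w_elem _
  have h4 : (wOf K₁).relIndex Q = 2 := by rw [← hQ] at e; omega
  have h5 : ⁅Q, zpowers x⁆ ≤ wOf K₁ := commutator_le_of_le_cmod (zpowers_le.2 ⟨hxW, fun v hv => by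
    have := (mul_mem_two h4 hv (conj_mem hxQ (inv_mem hv))).2 ⟨fun e => conj_mem hxW (inv_mem e), fun e => by
      simpa [mul_assoc] using conj_mem' hxW (inv_mem e)⟩
    simpa [commutatorElement_def, mul_assoc] using this⟩)
  have h6 := CL.Grp.card_sup_of_inf_eq_bot (H := Q ⊓ 𝒞(zpowers x)) (K := wOf K₁)
    (inf_le_left.trans (h2.trans (cent_le_norm _)))
    (by rw [eq_bot_iff, ← h.k3.w_inf_cz hx hx']; exact le_inf inf_le_right (inf_le_left.trans inf_le_right))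
  have h7 := card_le_of_le (sup_le (inf_le_left : Q ⊓ 𝒞(zpowers x) ≤ Q) h1)
  rw [h6, JC.card h.jc, ← hQ] at *
  have h8 : Nat.card (Q ⊓ 𝒞(zpowers x) : Subgroup G) ≤ 2 := by omega
  exact elem_of_le (elem_sup (elem_of_two ((core_isP _).to_le inf_le_left) h8) (w_elem K₁)
    (inf_le_left.trans h2)) ((CL.NGrp.comm_sup_cz (core_isP _) ho hxQ).ge.trans
      (sup_le (h5.trans le_sup_right) le_sup_left))

theorem q_eq : pCoreOf 2 L₁ = pCoreOf 2 (K₁ ⊔ T) := le_antisymm h.q_le_core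
  ((elem_le_cent h.core_elem).trans ((cent_mono h.q_le_core).trans (h.z.cent_le h.u₁.mx.1)))

theorem q_elem : IsElementaryAbelian 2 (pCoreOf 2 L₁) := h.q_eq ▸ h.core_elem

theorem card_q : Nat.card (pCoreOf 2 L₁) = 4 ∨ Nat.card (pCoreOf 2 L₁) = 8 := h.q_eq ▸ h.card_core

theorem idx_q : (pCoreOf 2 L₁).relIndex T = 2 := h.q_eq ▸ h.idx_core

theorem l_le_norm : L₁ ≤ 𝒩(K₁) := fun g hg => h.lh.mem_norm h.jc h.u₁.le hg fun e => by
  have h1 := cj_le_of_le h.w_le_q (self_le_norm_core L₁ hg)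
  have h2 := CL.Grp.card_sup_of_inf_eq_bot (ea_le_normalizer_of_le h.q_elem h.w_le_q h1) e
  have h3 := card_le_of_le (sup_le h.w_le_q h1)
  have h4 := h.card_q
  rw [h2, card_cj, JC.card h.jc] at h3
  omega

theorem norm_w : 𝒩(wOf K₁) = L₁ :=
  max_eq h.u₁.mx (elem_isP (w_elem _)) (JC.w_ne h.jc) (h.l_le_norm.trans (norm_le_norm_w _))

theorem cent_w : 𝒞(wOf K₁) = pCoreOf 2 L₁ := by
  have h0 : 𝒞(wOf K₁) ≤ L₁ := (cent_le_norm _).trans h.norm_w.le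
  refine le_antisymm (le_core h0 (isPGroup_of_res_le (core_isP L₁) (le_trans (res_le_cent (elem_isP (w_elem K₁)) ?_
    (res_le _)) (h.z.cent_le h.u₁.mx.1))) (h.norm_w.ge.trans (norm_le_norm_cent _)))
    ((elem_le_cent h.q_elem).trans (cent_mono h.w_le_q))
  have h3 := CL.Grp.card_mul_relIndex h.w_le_q
  rw [JC.card h.jc] at h3
  refine commutator_le.2 fun v hv c hc => ?_
  have hc' := res_le _ hc
  rcases h.card_q with e | e
  · rw [eq_of_le_of_card_ge h.w_le_q (by rw [JC.card h.jc, e])]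
    exact comm_swap (comm_mem_norm (self_le_norm_core _ (h0 hc')) hv)
  have := (mul_mem_two (show (wOf K₁).relIndex (pCoreOf 2 L₁) = 2 by omega) hv
    (conj_mem (self_le_norm_core _ (h0 hc')) (inv_mem hv))).2 ⟨fun e => conj_mem (cent_le_norm _ hc') (inv_mem e),
      fun e => by simpa [mul_assoc] using conj_mem' (cent_le_norm _ hc') (inv_mem e)⟩
  simpa [commutatorElement_def, mul_assoc] using this

theorem l_eq : K₁ ⊔ T = L₁ := by
  refine eq_of_le_of_card_ge h.p_le ?_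
  have h1 := relIndex_cent_le (JC.card h.jc)
  rw [h.norm_w, h.cent_w] at h1
  rw [← CL.Grp.card_mul_relIndex (core_le (p := 2) L₁), ← CL.Grp.card_mul_relIndex (core_le (p := 2) (K₁ ⊔ T)),
    h.idx_six, ← h.q_eq]
  exact Nat.mul_le_mul_left _ h1

theorem q_ne : ¬ pCoreOf 2 L₁ ≤ pCoreOf 2 L₂ := fun e => h.ne (by
  have h1 := CL.Grp.card_mul_relIndex h.lh.q_le
  have h2 := CL.Grp.card_mul_relIndex h.symm.lh.q_le
  rw [h.idx_q] at h1
  rw [h.symm.idx_q] at h2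
  rw [← max_norm_core h.u₁.mx, eq_of_le_of_card_ge e (by omega), max_norm_core h.u₂.mx])

theorem mem_or {y : G} (hy : y ∈ T) (h2 : y * y = 1) : y ∈ pCoreOf 2 L₁ ∨ y ∈ pCoreOf 2 L₂ := by
  by_contra hn
  push Not at hn
  obtain ⟨a, ha, ha'⟩ := SetLike.not_le_iff_exists.1 h.q_ne
  have hb : a * y ∈ pCoreOf 2 L₂ := (mul_mem_two h.symm.idx_q (h.lh.q_le ha) hy).2 (iff_of_false ha' hn.2)
  have a2 : a * a = 1 := by rw [← pow_two]; exact ea_pow h.q_elem ha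
  have b2 : a * y * (a * y) = 1 := by rw [← pow_two]; exact ea_pow h.symm.q_elem hb
  have c : a * y = y * a := by
    rw [← inv_eq_of_mul_eq_one_right b2, mul_inv_rev, inv_eq_of_mul_eq_one_right a2, inv_eq_of_mul_eq_one_right h2]
  refine ha' (h.z.cent_le h.u₂.mx.1 fun q hq => ?_)
  by_cases e : q ∈ pCoreOf 2 L₁
  · exact ea_mul_comm h.q_elem e ha
  · have := ea_mul_comm h.q_elem ((mul_mem_two h.idx_q (h.symm.lh.q_le hq) hy).2 (iff_of_false e hn.1)) ha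
    rw [mul_assoc, ← c, ← mul_assoc, ← mul_assoc] at this
    exact mul_right_cancel this

theorem le_or {A : Subgroup G} (hA : IsElementaryAbelian 2 A) (hle : A ≤ T) :
    A ≤ pCoreOf 2 L₁ ∨ A ≤ pCoreOf 2 L₂ := by
  have m : ∀ a ∈ A, a ∈ pCoreOf 2 L₁ ∨ a ∈ pCoreOf 2 L₂ := fun a ha =>
    h.mem_or (hle ha) (by rw [← pow_two]; exact ea_pow hA ha)
  by_contra hn
  push Not at hn
  obtain ⟨a, ha, ha'⟩ := SetLike.not_le_iff_exists.1 hn.1
  obtain ⟨b, hb, hb'⟩ := SetLike.not_le_iff_exists.1 hn.2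
  rcases m _ (mul_mem ha hb) with e | e
  · exact ha' ((mul_mem_cancel_right ((m b hb).resolve_right hb')).1 e)
  · exact hb' ((mul_mem_cancel_left ((m a ha).resolve_left ha')).1 e)

theorem q_inf : pCoreOf 2 L₁ ⊓ pCoreOf 2 L₂ = 𝛀[2] T := by
  refine le_antisymm (le_ozc (elem_of_le h.q_elem inf_le_left) (inf_le_left.trans h.lh.q_le) fun y hy t ht => ?_)
    (le_inf ((ozc_le_cent _).trans ((cent_mono h.lh.q_le).trans (h.z.cent_le h.u₁.mx.1)))
      ((ozc_le_cent _).trans ((cent_mono h.symm.lh.q_le).trans (h.z.cent_le h.u₂.mx.1))))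
  obtain ⟨a, ha, ha'⟩ := SetLike.not_le_iff_exists.1 h.q_ne
  by_cases e : t ∈ pCoreOf 2 L₂
  · exact ea_mul_comm h.symm.q_elem e hy.2
  · have := ea_mul_comm h.symm.q_elem ((mul_mem_two h.symm.idx_q ht (h.lh.q_le ha)).2 (iff_of_false e ha')) hy.2
    rw [mul_assoc, ea_mul_comm h.q_elem ha hy.1, ← mul_assoc, ← mul_assoc] at this
    exact mul_right_cancel this

/-- an element of a 2-overgroup of `T` normalising `T` interchanges `O₂(L₁)` and `O₂(L₂)` -/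
theorem swap {P : Subgroup G} (hP : IsPGroup 2 P) (hle : T ≤ P) {g : G} (hg : g ∈ P) (hn : g ∈ 𝒩(T)) (hg' : g ∉ T) :
    cj g L₁ = L₂ := by
  have h0 : g ∉ L₁ := fun e => hg' ((h.u₁.syl.eq_of_le (hP.to_le inf_le_left) (le_inf hle h.u₁.syl.le)
    inf_le_right).le (mem_inf.2 ⟨hg, e⟩))
  have h1 := (h.le_or (elem_map _ h.q_elem) (cj_le_of_le h.lh.q_le hn)).resolve_left fun e =>
    h0 ((max_norm_core h.u₁.mx).le (mem_norm_of_cj_le e))
  have h2 := CL.Grp.card_mul_relIndex h.lh.q_le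
  have h3 := CL.Grp.card_mul_relIndex h.symm.lh.q_le
  rw [h.idx_q] at h2
  rw [h.symm.idx_q] at h3
  rw [← max_norm_core h.u₁.mx, cj_norm, eq_of_le_of_card_ge h1 (by rw [card_cj]; omega), max_norm_core h.u₂.mx]

end Pr

end CL.KS12
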