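/-
KS12, part H: existence of a second maximal 2-local subgroup.
-/
import Cfsg.Agent.Even.KS12.G
import Cfsg.Agent.S2947
import Cfsg.Agent.S1225

set_option autoImplicit false

open Cfsg Subgroup CL.Even CL.Loc
open CL.Grp (IsSylowIn SubnIn pPrimeCoreOf)
open scoped commutatorElement

namespace CL.KS12

variable {G : Type*} [Group G] [Finite G] {T L K K₁ K₂ L₁ L₂ : Subgroup G}

theorem card_zp {a : G} (h2 : a ^ 2 = 1) (h1 : a ≠ 1) : Nat.card (zpowers a) = 2 := by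
  rw [Nat.card_zpowers, orderOf_eq_prime h2 h1]

theorem idx_zp {Z : Subgroup G} (hZ : IsElementaryAbelian 2 Z) (h4 : Nat.card Z = 4) {a : G} (ha : a ∈ Z)
    (h1 : a ≠ 1) : (zpowers a).relIndex Z = 2 := by
  have := CL.Grp.card_mul_relIndex (zpowers_le.2 ha)
  rw [card_zp (ea_pow hZ ha) h1, h4] at this
  omega

theorem K3.trans_w (h : K3 K) (h4 : Nat.card (wOf K) = 4) {a b : G} (ha : a ∈ wOf K) (hb : b ∈ wOf K) (ha1 : a ≠ 1)
    (hb1 : b ≠ 1) : ∃ k ∈ K, k * a * k⁻¹ = b := by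
  obtain ⟨x, hx, hx', ho⟩ := h.exists_x
  have hxW := norm_le_norm_w _ (le_normalizer hx)
  have c2 := card_zp (ea_pow (w_elem K) ha) ha1
  have h1 : x ∉ 𝒞(zpowers a) := fun e => ha1 (mem_bot.1 (h.w_inf_cz hx hx' ▸ mem_inf.2 ⟨ha, mem_cz.2 (mem_cz.1 e).symm⟩))
  have h2 : ∀ y, y * a * y⁻¹ ∈ zpowers a → y ∈ 𝒞(zpowers a) := fun y e => mem_cz.2 (mul_inv_eq_iff_eq_mul.1
    (eq_of_card_le_two c2.le e (mem_zpowers a) (by rwa [Ne, conj_eq_one_iff]) ha1)).symm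
  by_cases e : b ∈ zpowers a
  · exact ⟨1, one_mem _, by rw [eq_of_card_le_two c2.le e (mem_zpowers a) hb1 ha1]; simp⟩
  rcases two_coset (w_elem K) (idx_zp (w_elem K) h4 ha ha1) c2.le (conj_mem hxW ha) (conj_mem (inv_mem hxW) ha) hb
    (fun e => h1 (h2 x e)) (fun e => h1 (inv_mem_iff.1 (h2 _ e))) e (fun e => h1 (mem_of_pow_mem_of_coprime ho
      (mem_cz.2 (by
        calc a * x ^ 2 = x * (x⁻¹ * a * x⁻¹⁻¹) * x := by rw [pow_two]; group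
          _ = _ := by rw [← e, pow_two]; group)))) with e | e
  exacts [⟨x, hx, e.symm⟩, ⟨x⁻¹, inv_mem hx, e.symm⟩]

theorem Pr.card_z0 (h : Pr T K₁ L₁ K₂ L₂) : Nat.card (𝛀[2] (𝐉[2] T)) ≤ 4 := by
  have := h.card_d
  rw [JC.card_z0 h.jc h.isP]
  simp only [dD] at this
  omega

theorem Uq.bad (u : Uq T K L) (z : ZN G) {T₁ : Subgroup G} (p : Pr T₁ K₁ L₁ K₂ L₂) (hlt : T₁ < T) : False := by
  have l := z.lh_loc u.mx.1 u.syl
  have hT := u.syl.isPGroup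
  have hTV : T ≤ 𝒩(vV L) := u.syl.le.trans (nV L)
  have h1 : vV L ≤ T₁ := by
    by_contra hn
    have hP : T₁ ⊔ vV L ≤ T := sup_le hlt.le l.v_le
    obtain ⟨g, hg, hg'⟩ := SetLike.exists_of_lt (CL.Grp.lt_inf_normalizer_of_isPGroup (hT.to_le hP)
      (left_lt_sup.2 hn))
    obtain ⟨t, ht, v, hv, rfl⟩ := (mem_sup_nr (hlt.le.trans hTV)).1 hg.1
    rw [mul_mem_cancel_left ht] at hg'
    have hvn : v ∈ 𝒩(T₁) := (mul_mem_cancel_left (le_normalizer ht)).1 hg.2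
    have s1 := p.swap hT hlt.le (l.v_le hv) hvn hg'
    have s2 := p.symm.swap hT hlt.le (l.v_le hv) hvn hg'
    obtain ⟨a, ha, ha'⟩ := SetLike.not_le_iff_exists.1 p.q_ne
    have k1 : v * a * v⁻¹ ∈ pCoreOf 2 L₂ := by rw [← s1, ← cj_core]; exact conj_mem_cj v ha
    have k2 : v * a * v⁻¹ ∉ pCoreOf 2 L₁ := fun e => ha' (by
      rw [← s2, ← cj_core, mem_cj] at e; simpa [mul_assoc] using e)
    have k3 : ⁅v, a⁆ ∈ vV L := comm_swap (comm_mem_norm (hTV (hlt.le (p.lh.q_le ha))) hv)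
    rcases p.mem_or (comm_mem_norm hvn (p.lh.q_le ha)) (by rw [← pow_two]; exact ea_pow (Y_elem L) k3) with e | e
    · exact k2 ((mul_mem_cancel_right (inv_mem ha)).1 e)
    · exact ha' (inv_mem_iff.1 ((mul_mem_cancel_left k1).1 e))
  obtain ⟨s, hs, hs'⟩ := SetLike.exists_of_lt (CL.Grp.lt_inf_normalizer_of_isPGroup hT hlt)
  have s1 := p.swap hT hlt.le hs.1 hs.2 hs'
  have s2 := p.symm.swap hT hlt.le hs.1 hs.2 hs'
  have h2 : vV L ≤ 𝛀[2] (𝐉[2] T₁) := by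
    rw [← p.om_eq, ← p.q_inf]
    rcases p.le_or (Y_elem L) h1 with e | e
    · exact le_inf e (by rw [← s1, ← cj_core, ← cj_eq (hTV hs.1)]; exact cj_mono s e)
    · exact le_inf (by rw [← s2, ← cj_core, ← cj_eq (hTV hs.1)]; exact cj_mono s e) e
  have h3 := l.w_le_v u.jc u.le
  have h4 : wOf K = 𝛀[2] (𝐉[2] T₁) := eq_of_le_of_card_ge (h3.trans h2) (JC.card u.jc ▸ p.card_z0)
  have h5 := JC.card_z0 p.jc p.isP
  rw [← h4, JC.card u.jc, h4] at h5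
  obtain ⟨⟨d, hd⟩, hd1⟩ := ne_bot_iff_exists_ne_one.1 ((one_lt_card_iff_ne_bot (dD T₁ K₁)).1
    (by simp only [dD]; omega))
  obtain ⟨⟨a, ha⟩, ha1⟩ := ne_bot_iff_exists_ne_one.1 (inf_cent_ne_bot (Y_isP L) hT hTV
    fun e => JC.w_ne u.jc (le_bot_iff.1 (e ▸ h3)))
  rw [Ne, mk_eq_one] at hd1 ha1
  obtain ⟨k, -, e⟩ := (JC.k3 u.jc).trans_w (JC.card u.jc) (h4.ge (h2 ha.1)) (h4.ge hd.1) ha1 hd1
  have h6 := p.u₁.cz_le hd hd1
  rw [← e, ← cj_zp, ← cj_cent] at h6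
  have h7 := p.u₁.syl.card_le (isPGroup_cj hT k) ((cj_mono k (cz_comm.2 ha.2)).trans h6)
  rw [card_cj] at h7
  exact hlt.ne (eq_of_le_of_card_ge hlt.le h7)

namespace Uq

variable (u : Uq T K L) (z : ZN G)
include u

theorem syl_of_norm (hn : 𝒩(T) ≤ L) : IsSylowIn 2 T ⊤ := by
  obtain ⟨S, hS, hle⟩ := CL.Grp.exists_isSylowIn_ge u.syl.isPGroup le_top
  rwa [eq_of_norm_le hS.isPGroup hle (u.syl.eq_of_le (hS.isPGroup.to_le inf_le_left) (le_inf hle le_normalizer)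
    (inf_le_right.trans hn)).le]

include z

theorem pair_of_norm (hn : ¬ 𝒩(T) ≤ L) : ∃ K₂ L₂, Pr T K L K₂ L₂ := by
  obtain ⟨g, hg, hg'⟩ := SetLike.not_le_iff_exists.1 hn
  have := u.conj g
  rw [cj_eq hg] at this
  exact ⟨_, _, z, u, this, fun e => hg' (u.norm_le (cj_eq_iff_mem.1 e.symm))⟩

theorem pair_of_nj (hT : 𝒩(T) ≤ L) (hn : ¬ 𝒩(𝐉[2] T) ≤ L) : ∃ K₂ L₂, Pr T K L K₂ L₂ := by
  have hS := u.syl_of_norm hT
  obtain ⟨g, hg, hg'⟩ := SetLike.not_le_iff_exists.1 hn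
  have u' := u.conj g
  have e : 𝐉[2] (cj g T) = 𝐉[2] T := by rw [← cj_thom, cj_eq hg]
  have ne : L ≠ cj g L := fun e => hg' (u.norm_le (cj_eq_iff_mem.1 e.symm))
  have jc := JC.congr u'.jc e.symm
  have h1 := u.le_cent_d jc (fun k => ne (u.eq_of_le u' e k).symm) z
  by_cases h0 : dD T (cj g K) = ⊥
  · have h2 := JC.card_z0 jc hS.isPGroup
    rw [show 𝛀[2] (𝐉[2] T) ⊓ 𝒞(cj g K) = ⊥ from h0, card_bot] at h2
    refine absurd (hT (z.hz' hS (cent_mono (ozc_le_zj T) fun a ha => ?_))) hg'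
    by_cases k : a = 1
    · simp [k]
    exact (mul_inv_eq_iff_eq_mul.1 (eq_of_card_le_two h2.le (conj_mem (norm_le_norm_ozc _ hg) ha) ha
      (by rwa [Ne, conj_eq_one_iff]) k)).symm
  obtain ⟨⟨d, hd⟩, hd1⟩ := ne_bot_iff_exists_ne_one.1 h0
  rw [Ne, mk_eq_one] at hd1
  exact ⟨_, _, z, u, ⟨jc, u'.mx, u'.le, hS.of_le ((h1.trans (cent_mono (zpowers_le.2 hd))).trans
    (u'.cz_le (by rwa [dD, e]) hd1)) le_top, fun U k1 k2 k3 => u'.uq U k1 k2 (e ▸ k3)⟩, ne⟩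

theorem exists_pair (hO : pCore 2 G = ⊥) : ∃ K₂ L₂, Pr T K L K₂ L₂ := by
  by_cases hT : 𝒩(T) ≤ L
  swap
  · exact u.pair_of_norm z hT
  by_cases hJ : 𝒩(𝐉[2] T) ≤ L
  swap
  · exact u.pair_of_nj z hT hJ
  have hS := u.syl_of_norm hT
  by_cases h1 : T ∈ straddlingTwoSubgroups L
  · have h : HM T L T := ⟨z, hS, u.mx.1, hJ, mx_of_syl hS h1⟩
    obtain ⟨K₂, hK⟩ := h.exists_out
    obtain ⟨L₂, u₂⟩ := h.exists_uq hK
    exact ⟨K₂, L₂, z, u, u₂, fun e => hK.2.1 (e ▸ u₂.le)⟩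
  exfalso
  rcases (straddlingTwoSubgroups L).eq_empty_or_nonempty with h0 | h0
  · obtain ⟨P, rfl⟩ := CL.Grp.isSylowIn_top_iff.1 hS
    have se := (Cfsg.Agent.S2947.result z.chr z.sol z.hz hO P L u.mx.1 hJ).2 h0
    obtain ⟨v, hv, hv1, hv2⟩ := exists_mem_pow_eq_one (core_isP (p := 2) L) (loc_core_ne u.mx.1)
    have ov := orderOf_eq_prime hv2 hv1
    obtain ⟨g, -, hg⟩ := SetLike.exists_of_lt (lt_top_iff_ne_top.2 se.1)
    have og : orderOf (g * v * g⁻¹) = 2 := by rw [← ov]; exact (MulAut.conj g).orderOf_eq v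
    have h2 : g * v * g⁻¹ ∉ L := fun e => Nat.not_even_iff_odd.2 (se.2.2 g hg) (even_iff_two_dvd.2
      (og ▸ orderOf_dvd_natCard _ (mem_inf.2 ⟨e, conj_mem_cj g (core_le L hv)⟩)))
    refine JC.not_le_norm u.jc (core_isP L) (thompsonSubgroupOf_le_iff.2 fun A hA a ha => ?_)
      (u.le.trans (self_le_norm_core L))
    by_cases k : a = 1
    · rw [k]; exact one_mem _
    obtain ⟨d, hd, e⟩ := (Cfsg.Agent.S1225.result L se _ og h2 v a ov (core_le L hv)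
      (orderOf_eq_prime (ea_pow (meaIn_ea hA) ha) k) (u.syl.le (meaIn_le hA ha))).1
    rw [← e]
    exact conj_mem (self_le_norm_core L hd.1) hv
  obtain ⟨T₁, hT₁⟩ := exists_mx h0
  have h : HM T L T₁ := ⟨z, hS, u.mx.1, hJ, hT₁⟩
  obtain ⟨K₁, hK⟩ := h.exists_out
  obtain ⟨L₁, u₁⟩ := h.exists_uq hK
  obtain ⟨l, hl, h2⟩ := syl_conj_le u.syl h.isP hT₁.1.2.2.1
  have h3 : cj l T₁ ≠ T := fun e => h1 (by
    obtain ⟨k1, k2, k3, U, k4, k5, k6⟩ := hT₁.1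
    exact ⟨hS.isPGroup, z.syl_ne hS, u.syl.le, cj l U, loc_cj k4 l, e ▸ cj_mono l k5,
      fun k => k6 (by rwa [cj_le_iff, cj_eq (inv_mem (le_normalizer hl))] at k)⟩)
  obtain ⟨K₂, L₂, p⟩ := (u₁.conj l).pair_of_norm z fun e =>
    h3 (((u₁.conj l).syl_of_norm e).eq_of_le hS.isPGroup h2 le_top).symm
  exact u.bad z p (h2.lt_of_ne h3)

end Uq

theorem HM.exists_pair {S M : Subgroup G} (h : HM S M T) (hO : pCore 2 G = ⊥) :
    ∃ K₁ L₁ K₂ L₂, Pr T K₁ L₁ K₂ L₂ := by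
  obtain ⟨K, hK⟩ := h.exists_out
  obtain ⟨L, u⟩ := h.exists_uq hK
  exact ⟨K, L, u.exists_pair h.z hO⟩

end CL.KS12
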