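/-
KS12, part I: the transfer argument and the maximal 2-local subgroups of `O²(G)` (12.3).
-/
import Cfsg.Agent.Even.KS12.H
import Cfsg.Agent.Transfer.Control

set_option autoImplicit false

open Cfsg Subgroup CL.Even CL.Loc
open CL.Grp (IsSylowIn SubnIn pPrimeCoreOf)
open scoped commutatorElement

namespace CL.KS12

variable {G : Type*} [Group G] [Finite G] {T K₁ K₂ L₁ L₂ : Subgroup G}

theorem tt_amb {H S M : Subgroup G} (hH : pResidualOf 2 H = H) (hS : IsSylowIn 2 S H) (hi : M.relIndex S = 2)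
    {x : G} (hx : x ∈ H) (h1 : ∀ (k : ℕ) (g : G), Odd k → g⁻¹ * x ^ k * g ∉ M)
    (h2 : ∀ (k : ℕ) (g : G), Even k → g⁻¹ * x ^ k * g ∈ S → g⁻¹ * x ^ k * g ∈ M) : False := by
  obtain ⟨N, -, h3, h4⟩ := CL.Transfer.thompson_transfer_general (S.subgroupOf H) (M.subgroupOf H)
    (Nat.not_even_iff_odd.1 fun e => hS.not_dvd (even_iff_two_dvd.1 e)) (by rwa [relIndex_subgroupOf hS.le]) ⟨x, hx⟩
    (fun k g => h1 k g) fun k g => h2 k g
  refine h4 (res_le_of_pow (p := 2) (L := ⊤) (fun y _ => ⟨1, sq_mem_of_index_two h3 y⟩) ?_)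
  rw [res_top, ← subgroupOf_res, hH]
  exact hx

theorem tt_inv {H S M : Subgroup G} (hH : pResidualOf 2 H = H) (hS : IsSylowIn 2 S H) (hi : M.relIndex S = 2)
    {x : G} (hx : x ∈ H) (h2 : x ^ 2 = 1) (h1 : ∀ g : G, g * x * g⁻¹ ∉ M) : False :=
  tt_amb hH hS hi hx (fun k g ⟨m, e⟩ => by simpa [e, pow_succ, pow_mul, h2] using h1 g⁻¹)
    fun k g ⟨m, e⟩ _ => by rw [e, ← two_mul, pow_mul, h2]; simp

namespace Pr

variable (h : Pr T K₁ L₁ K₂ L₂)
include h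

theorem w_not_le : ¬ wOf K₁ ≤ pCoreOf 2 L₂ := fun e => by
  have h1 := JC.card_zw h.jc h.isP
  rw [← h.om_eq, ← h.q_inf, inf_eq_right.2 (le_inf h.w_le_q e), JC.card h.jc] at h1
  omega

theorem t_le_norm_w : T ≤ 𝒩(wOf K₁) := h.t_le_norm.trans (norm_le_norm_w _)

theorem w_le_t : wOf K₁ ≤ T := h.w_le_q.trans h.lh.q_le

theorem card_ww : Nat.card (wOf K₁ ⊓ wOf K₂ : Subgroup G) = 2 := by
  have h1 := card_le_of_le (le_inf (inf_le_inf h.w_le_q h.symm.w_le_q) inf_le_left)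
  rw [h.q_inf, h.om_eq, JC.card_zw h.jc h.isP] at h1
  have h2 := (one_lt_card_iff_ne_bot (wOf K₁ ⊓ wOf K₂)).2 fun e => h.w_not_le (by
    rw [← h.symm.cent_w, ← commutator_eq_bot_iff', eq_bot_iff, ← e]
    exact le_inf (commutator_le_of_le_norm' (h.symm.w_le_t.trans h.t_le_norm_w))
      (commutator_le_of_le_norm (h.w_le_t.trans h.symm.t_le_norm_w)))
  omega

theorem card_r : Nat.card (wOf K₁ ⊔ wOf K₂ : Subgroup G) = 8 := by
  have := CL.Grp.card_sup_mul_card_inf (h.w_le_t.trans h.symm.t_le_norm_w)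
  rw [h.card_ww, JC.card h.jc, JC.card h.symm.jc] at this
  omega

theorem r_le : wOf K₁ ⊔ wOf K₂ ≤ T := sup_le h.w_le_t h.symm.w_le_t

theorem q_inf_r : pCoreOf 2 L₁ ⊓ (wOf K₁ ⊔ wOf K₂) = wOf K₁ := by
  refine (eq_of_le_of_card_ge (le_inf h.w_le_q le_sup_left) ?_).symm
  have := mul_card_le_of_lt (h.isP.to_le h.r_le) (lt_of_le_of_ne (inf_le_right (a := pCoreOf 2 L₁))
    fun e => h.symm.w_not_le (le_sup_right.trans (e.ge.trans inf_le_left)))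
  rw [h.card_r] at this
  rw [JC.card h.jc]
  omega

theorem card_t : Nat.card T = 2 * Nat.card (pCoreOf 2 L₁) := by
  rw [← CL.Grp.card_mul_relIndex h.lh.q_le, h.idx_q, mul_comm]

theorem q_sup : pCoreOf 2 L₁ ⊔ pCoreOf 2 L₂ = T :=
  (CL.Grp.eq_or_eq_of_relIndex_prime le_sup_left (sup_le h.lh.q_le h.symm.lh.q_le)
    (by rw [h.idx_q]; exact Nat.prime_two)).resolve_left fun e => h.symm.q_ne (le_sup_right.trans e.le)

theorem res_l : pResidualOf 2 L₁ = K₁ := by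
  rw [← h.l_eq, sup_comm, res_sup_eq_of_isPGroup h.isP h.t_le_norm, h.k3.res]

theorem noconj {d : G} (hd : d ∈ dD T K₁) (hd1 : d ≠ 1) (g : G) : g * d * g⁻¹ ∉ wOf K₁ ⊔ wOf K₂ := fun e => by
  obtain ⟨⟨z, hz⟩, hz1⟩ := ne_bot_iff_exists_ne_one.1 ((one_lt_card_iff_ne_bot _).1 (h.card_ww ▸ one_lt_two))
  rw [Ne, mk_eq_one] at hz1
  have h1 : g * d * g⁻¹ ≠ 1 := by rwa [Ne, conj_eq_one_iff]
  obtain ⟨k, hk⟩ : ∃ k : G, k * d * k⁻¹ = z := by
    rcases h.mem_or (h.r_le e) (by rw [conj_mul, ← pow_two, ea_pow (ozc_elem _) hd.1]; simp) with e' | e'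
    · obtain ⟨k, -, hk⟩ := h.k3.trans_w (JC.card h.jc) (h.q_inf_r.le (mem_inf.2 ⟨e', e⟩)) hz.1 h1 hz1
      exact ⟨k * g, by rw [← hk]; group⟩
    · obtain ⟨k, -, hk⟩ := h.symm.k3.trans_w (JC.card h.symm.jc)
        (h.symm.q_inf_r.le (mem_inf.2 ⟨e', sup_comm (wOf K₁) _ ▸ e⟩)) hz.2 h1 hz1
      exact ⟨k * g, by rw [← hk]; group⟩
  have h2 : cj k L₁ = 𝒞(zpowers z) := by
    rw [← hk, ← cj_zp, ← cj_cent, cj_inj]
    refine le_antisymm (h.l_eq.ge.trans (sup_le (cz_comm.2 hd.2) (cz_comm.2 (ozc_le_cent _ (h.om_eq.ge hd.1)))))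
      (h.u₁.cz_le hd hd1)
  have h3 := core_le_syl ((syl_cj h.u₁.syl k).of_card_le h.isP (h2 ▸ cz_comm.2 (ozc_le_cent _
    (h.q_inf.le (mem_inf.2 ⟨h.w_le_q hz.1, h.symm.w_le_q hz.2⟩)))) (card_cj k T).le)
  have c1 := h.card_t
  have c2 := h.symm.card_t
  have h4 : ∀ {K₁' K₂' L₁' L₂' : Subgroup G}, Pr T K₁' L₁' K₂' L₂' → z ∈ wOf K₁' →
      ¬ pCoreOf 2 (cj k L₁) ≤ pCoreOf 2 L₁' := fun p hw e => by
    have c3 := p.card_t
    have := max_norm_core (max_cj h.u₁.mx k)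
    rw [eq_of_le_of_card_ge e (by rw [← cj_core, card_cj]; omega), max_norm_core p.u₁.mx, h2] at this
    exact hz1 (mem_bot.1 (p.k3.w_inf_cent ▸ mem_inf.2 ⟨hw, cz_comm.1 (this ▸ p.u₁.le)⟩))
  exact (h.le_or (by rw [← cj_core]; exact elem_map _ h.q_elem) h3).elim (h4 h hz.1) (h4 h.symm hz.2)

theorem swap_w {P : Subgroup G} (hP : IsPGroup 2 P) (hle : T ≤ P) {g : G} (hg : g ∈ P) (hn : g ∈ 𝒩(T))
    (hg' : g ∉ T) : cj g K₁ = K₂ := by rw [← h.res_l, cj_res, h.swap hP hle hg hn hg', h.symm.res_l]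

theorem not_le_res (h8 : Nat.card (pCoreOf 2 L₁) = 8) : ¬ T ≤ pResidualOf 2 ⊤ := fun hTH => by
  set R := wOf K₁ ⊔ wOf K₂ with hR
  have cT := h.card_t
  have cT' := h.symm.card_t
  have cR : Nat.card R = 8 := h.card_r
  have iR : R.relIndex T = 2 := by have := CL.Grp.card_mul_relIndex h.r_le; rw [← hR, cR] at this; omega
  have hE := ozc_elem (p := 2) (𝐉[2] T)
  have cZ : Nat.card (𝛀[2] (𝐉[2] T)) = 4 := by
    have h1 := card_le_two_mul (H := pCoreOf 2 L₂) (K := pCoreOf 2 L₁) fun a ha b hb na nb =>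
      (mul_mem_two h.symm.idx_q (h.lh.q_le ha) (h.lh.q_le hb)).2 (iff_of_false na nb)
    rw [h.q_inf, h.om_eq] at h1
    have := h.card_z0
    omega
  have h5 := JC.card_z0 h.jc h.isP
  obtain ⟨⟨d, hd⟩, hd1⟩ := ne_bot_iff_exists_ne_one.1 ((one_lt_card_iff_ne_bot (dD T K₁)).1
    (by simp only [dD]; omega))
  rw [Ne, mk_eq_one] at hd1
  have hdT : d ∈ T := ozc_le _ (h.om_eq.ge hd.1)
  have hdC : ∀ t ∈ T, t * d = d * t := ozc_le_cent _ (h.om_eq.ge hd.1)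
  have hd2 : d ^ 2 = 1 := ea_pow hE hd.1
  have nc := h.noconj hd hd1
  obtain ⟨S, hS, hTS⟩ := CL.Grp.exists_isSylowIn_ge h.isP hTH
  have hP := hS.isPGroup
  rcases hTS.eq_or_lt with rfl | hlt
  · exact tt_inv (res_res _) hS iR (hTH hdT) hd2 nc
  set Y := wOf K₁ ⊓ wOf K₂ with hY
  have cY : Nat.card Y = 2 := h.card_ww
  have hYZ : Y ≤ 𝛀[2] (𝐉[2] T) := by rw [← h.om_eq, ← h.q_inf]; exact inf_le_inf h.w_le_q h.symm.w_le_q
  have hYR : Y ≤ R := inf_le_left.trans le_sup_left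
  have iY : Y.relIndex (𝛀[2] (𝐉[2] T)) = 2 := by have := CL.Grp.card_mul_relIndex hYZ; rw [cY] at this; omega
  have s1 : ∀ g ∈ S ⊓ 𝒩(T), g ∉ T → cj g (wOf K₁) = wOf K₂ ∧ cj g (wOf K₂) = wOf K₁ := fun g hg hg' =>
    ⟨by rw [cj_w, h.swap_w hP hTS hg.1 hg.2 hg'], by rw [cj_w, h.symm.swap_w hP hTS hg.1 hg.2 hg']⟩
  have s2 : ∀ g ∈ S ⊓ 𝒩(T), g ∉ T → g * d * g⁻¹ ≠ d := fun g hg hg' e => h.not_le (by
    rw [← h.swap_w hP hTS hg.1 hg.2 hg']
    refine le_trans ?_ (h.u₁.cz_le hd hd1)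
    rw [← e, ← cj_zp, ← cj_cent]
    exact cj_mono g (cz_comm.2 hd.2))
  have s3 : ∀ g ∈ S ⊓ 𝒩(T), g ∉ T → ∀ y ∈ T, y * y = 1 → g * y * g⁻¹ = y → y ∈ Y := fun g hg hg' y hy y2 e => by
    have k1 : y ∈ 𝛀[2] (𝐉[2] T) := by
      rw [← h.om_eq, ← h.q_inf]
      rcases h.mem_or hy y2 with k | k
      · exact mem_inf.2 ⟨k, by rw [← h.swap hP hTS hg.1 hg.2 hg', ← cj_core, ← e]; exact conj_mem_cj g k⟩
      · exact mem_inf.2 ⟨by rw [← h.symm.swap hP hTS hg.1 hg.2 hg', ← cj_core, ← e]; exact conj_mem_cj g k, k⟩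
    by_contra k2
    rcases two_coset hE iY cY.le hd.1 (conj_mem (le_norm_ozc (le_norm_thom le_rfl) hg.2) hd.1) k1
      (fun k => nc 1 (by simpa using hYR k)) (fun k => nc g (hYR k)) k2 (s2 g hg hg').symm with k | k
    · exact s2 g hg hg' (k ▸ e)
    · rw [k] at e
      exact s2 g hg hg' ((MulAut.conj g).injective e)
  have i1 : ∀ a ∈ S ⊓ 𝒩(T), ∀ b ∈ S ⊓ 𝒩(T), a ∉ T → b ∉ T → a * b ∈ T := fun a ha b hb na nb =>
    (h.u₁.syl.eq_of_le (hP.to_le inf_le_left) (le_inf hTS h.u₁.syl.le) inf_le_right).le (mem_inf.2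
      ⟨mul_mem ha.1 hb.1, h.u₁.norm_le (cj_eq_iff_mem.1 (by
        rw [cj_mul, h.swap hP hTS hb.1 hb.2 nb, h.symm.swap hP hTS ha.1 ha.2 na]))⟩)
  have e1 : S ⊓ 𝒩(T) = S := by
    refine eq_of_norm_le hP inf_le_left fun n hn => mem_inf.2 ⟨hn.1, mem_norm_of_cj_le ?_⟩
    have k : ∀ A : Subgroup G, IsElementaryAbelian 2 A → A ≤ T → Nat.card A = 8 → cj n A ≤ T := fun A k1 k2 k3 => by
      by_contra k4
      obtain ⟨a, ha, ha'⟩ := SetLike.not_le_iff_exists.1 k4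
      have k5 := cj_le_of_le (k2.trans (le_inf hTS le_normalizer)) hn.2
      have k6 := elem_map (MulAut.conj n).toMonoidHom k1
      have k7 := card_le_two_mul fun x hx y hy => i1 x (k5 hx) y (k5 hy)
      have k8 := card_le_of_le (show cj n A ⊓ T ≤ Y from fun y hy => s3 a (k5 ha) ha' y hy.2
        (by rw [← pow_two]; exact ea_pow k6 hy.1) (by rw [ea_mul_comm k6 ha hy.1]; simp))
      rw [card_cj] at k7
      omega
    nth_rewrite 1 [← h.q_sup, cj_sup]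
    exact sup_le (k _ h.q_elem h.lh.q_le h8) (k _ h.symm.q_elem h.symm.lh.q_le (by omega))
  rw [e1] at s1 s2 s3 i1
  have iT : T.relIndex S = 2 := relIndex_eq_two i1 hlt.not_ge
  by_cases hK : ∀ g ∈ S, g ∉ T → g * g ∉ R
  · have k1 : ∀ g ∈ S, g ^ 4 = 1 → g ∈ T := fun g hg e => by_contra fun hg' => hK g hg hg'
      (hYR (s3 g hg hg' _ (i1 g hg g hg hg' hg') (by rw [← e]; simp [pow_succ, mul_assoc]) (by group)))
    have k2 : ∀ t ∈ T, t ^ 4 = 1 := fun t ht => by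
      rw [show 4 = 2 * 2 from rfl, pow_mul, pow_two t]
      exact ea_pow h.q_elem ((mul_mem_two h.idx_q ht ht).2 Iff.rfl)
    obtain ⟨x, hx, hx'⟩ := SetLike.exists_of_lt hlt
    have k3 : ∀ m : ℕ, x ^ (2 * m) ∈ T := fun m => by
      rw [pow_mul, pow_two]; exact pow_mem (i1 x hx x hx hx' hx') m
    have k4 : ∀ g y : G, (g⁻¹ * y * g) ^ 4 = 1 ↔ y ^ 4 = 1 := fun g y => by
      rw [show g⁻¹ * y * g = g⁻¹ * y * g⁻¹⁻¹ by rw [inv_inv], conj_pow, conj_eq_one_iff]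
    refine tt_amb (res_res _) hS iT (hS.le hx) (fun k g ⟨m, e⟩ k5 => hx' ?_) fun k g ⟨m, e⟩ k5 => k1 _ k5 ?_
    · have := k1 _ (pow_mem hx k) ((k4 g _).1 (k2 _ k5))
      rwa [e, pow_succ, mul_mem_cancel_left (k3 m)] at this
    · rw [k4, e, ← two_mul]
      exact k2 _ (k3 m)
  push Not at hK
  have nR : ∀ g ∈ S, g ∉ T → g ∈ 𝒩(R) := fun g hg hg' =>
    cj_eq_iff_mem.1 (by rw [hR, cj_sup, (s1 g hg hg').1, (s1 g hg hg').2, sup_comm])
  obtain ⟨g, hg, hg', g2, gi⟩ : ∃ g ∈ S, g ∉ T ∧ g * g ∈ R ∧ ∀ r ∈ R, g * r * (g * r) ≠ 1 := by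
    obtain ⟨g, hg, hg', g2⟩ := hK
    by_cases k : ∀ r ∈ R, g * r * (g * r) ≠ 1
    · exact ⟨g, hg, hg', g2, k⟩
    push Not at k
    obtain ⟨r₀, hr₀, u2⟩ := k
    have hu : g * r₀ ∈ S := mul_mem hg (hTS (h.r_le hr₀))
    have hu' : g * r₀ ∉ T := by rwa [mul_mem_cancel_right (h.r_le hr₀)]
    generalize g * r₀ = u at *
    have iu := inv_eq_of_mul_eq_one_right u2
    have m1 : u * d * u⁻¹ * d ∈ Y := (mul_mem_two iY (conj_mem (le_norm_ozc (le_norm_thom le_rfl) (e1.ge hu).2) hd.1)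
      hd.1).2 (iff_of_false (fun k => nc u (hYR k)) fun k => nc 1 (by simpa using hYR k))
    refine ⟨u * d, mul_mem hu (hTS hdT), by rwa [mul_mem_cancel_right hdT], hYR (by rwa [iu, mul_assoc] at m1),
      fun r hr e => s2 u hu hu' ?_⟩
    have hrT := h.r_le hr
    obtain ⟨w, hw, w', hw', rfl⟩ := (mem_sup_nr (h.w_le_t.trans h.symm.t_le_norm_w)).1 hr
    have a1 : u * w * u⁻¹ ∈ wOf K₂ := (s1 u hu hu').1 ▸ conj_mem_cj u hw
    have a2 : u * w' * u⁻¹ ∈ wOf K₁ := (s1 u hu hu').2 ▸ conj_mem_cj u hw'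
    have a3 : (u * d * u⁻¹ * d) * ((u * w * u⁻¹) * ((u * w' * u⁻¹) * w) * w') = 1 := by
      have := hdC _ (conj_mem (e1.ge hu).2 hrT)
      calc _ = u * d * u⁻¹ * (d * (u * (w * w') * u⁻¹)) * (w * w') := by group
        _ = u * d * (u⁻¹ * u) * (w * w') * u⁻¹ * d * (w * w') := by rw [← this]; group
        _ = _ := by rw [← e, inv_mul_cancel, iu]; group
    have a4 : (u * w' * u⁻¹) * w ∈ Y := mem_inf.2 ⟨mul_mem a2 hw,
      (mul_mem_cancel_left a1).1 ((mul_mem_cancel_right hw').1 ((mul_mem_cancel_left (mem_inf.1 m1).2).1 (a3 ▸ one_mem _)))⟩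
    have a5 : u * ((u * w' * u⁻¹) * w) * u⁻¹ = (u * w' * u⁻¹) * w := by
      by_cases k : (u * w' * u⁻¹) * w = 1
      · rw [k]; simp
      refine eq_of_card_le_two cY.le ?_ a4 (by rwa [Ne, conj_eq_one_iff]) k
      exact mem_inf.2 ⟨(s1 u hu hu').2 ▸ conj_mem_cj u a4.2, (s1 u hu hu').1 ▸ conj_mem_cj u a4.1⟩
    have a6 : u * ((u * w' * u⁻¹) * w) * u⁻¹ = w' * (u * w * u⁻¹) := by
      calc _ = (u * u) * w' * (u * u)⁻¹ * (u * w * u⁻¹) := by group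
        _ = _ := by rw [u2]; group
    rw [ea_mul_comm (w_elem K₂) a1 a4.2, mul_assoc _ _ w', ea_mul_comm (w_elem K₂) a1 hw', ← a6, a5, ← pow_two,
      ea_pow (w_elem K₁) a4.1, mul_one, mul_eq_one_iff_eq_inv] at a3
    rw [a3, inv_eq_of_mul_eq_one_right (by rw [← pow_two, hd2])]
  have nc' : ∀ a : G, a * d * a⁻¹ ∉ zpowers g ⊔ R := fun a e => by
    obtain ⟨_, ⟨n, rfl⟩, r, hr, e'⟩ := (mem_sup_nr (zpowers_le.2 (nR g hg hg'))).1 e
    have m : ∀ k : ℤ, g ^ (2 * k) ∈ R := fun k => by rw [zpow_mul, zpow_two]; exact zpow_mem g2 k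
    rcases Int.even_or_odd' n with ⟨k, rfl | rfl⟩
    · exact nc a (e' ▸ mul_mem (m k) hr)
    · refine gi _ (mul_mem (m k) hr) ?_
      simp only at e'
      rw [← mul_assoc g _ r, ← zpow_one_add, add_comm, e', conj_mul, ← pow_two, hd2]
      simp
  have hle : zpowers g ⊔ R ≤ S := sup_le (zpowers_le.2 hg) (h.r_le.trans hTS)
  refine tt_inv (res_res _) hS ?_ (hTH hdT) hd2 nc'
  have c1 := mul_card_le_of_lt hP (lt_of_le_of_ne hle fun e => nc' 1 (by simpa using e.ge (hTS hdT)))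
  have c2 := mul_card_le_of_lt (hP.to_le hle) (right_lt_sup.2 fun e => hg' (h.r_le (e (mem_zpowers g))))
  have c3 := CL.Grp.card_mul_relIndex hle
  have c4 := CL.Grp.card_mul_relIndex hTS
  rw [iT] at c4
  rw [show Nat.card (zpowers g ⊔ R : Subgroup G) = 16 by omega] at c3
  omega

theorem t_inf_res : T ⊓ pResidualOf 2 ⊤ = wOf K₁ ⊔ wOf K₂ := by
  have h1 : wOf K₁ ⊔ wOf K₂ ≤ T ⊓ pResidualOf 2 ⊤ := le_inf h.r_le (sup_le
    ((w_le _).trans (h.k3.res.ge.trans (res_mono le_top))) ((w_le _).trans (h.symm.k3.res.ge.trans (res_mono le_top))))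
  refine (eq_of_le_of_card_ge h1 ?_).symm
  have cT := h.card_t
  rw [h.card_r]
  rcases h.card_q with e | e
  · have := card_le_of_le (inf_le_left : T ⊓ pResidualOf 2 ⊤ ≤ T)
    omega
  · have := mul_card_le_of_lt h.isP (inf_lt_left.2 (h.not_le_res e))
    omega

theorem max_res : IsMaximalTwoLocal (L₁.subgroupOf (pResidualOf 2 ⊤)) := by
  set H : Subgroup G := pResidualOf 2 ⊤ with hH
  have hK : K₁ ≤ H := h.k3.res.ge.trans (res_mono le_top)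
  have hW := (w_le K₁).trans hK
  have h1 : 𝒞(wOf K₁) ⊓ H ≤ wOf K₁ := by
    rw [h.cent_w, ← h.q_inf_r, ← h.t_inf_res]
    exact le_inf inf_le_left (inf_le_inf_right _ h.lh.q_le)
  refine ⟨⟨(wOf K₁).subgroupOf H, (elem_isP (w_elem K₁)).comap_subtype, fun e => JC.w_ne h.jc (by
    rw [← map_subgroupOf_eq_of_le hW, e, Subgroup.map_bot]), by rw [← h.norm_w, subgroupOf_normalizer_eq hW]⟩, ?_⟩
  rintro _ ⟨X, hX, h0, rfl⟩ hle
  refine le_antisymm (fun n hn => ?_) hle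
  have hX' := hX.map H.subtype
  have h0' : X.map H.subtype ≠ ⊥ := by rwa [Ne, map_eq_bot_iff_of_injective _ H.subtype_injective]
  have h2 : K₁ ≤ 𝒩(X.map H.subtype) := by
    have := (map_norm_of_injective H.subtype_injective).2 ((comap_mono h.u₁.le).trans hle)
    rwa [comap_subtype, map_subgroupOf_eq_of_le hK] at this
  have h3 := h.k3.eq_w (JC.card h.jc) ((le_inf inf_le_right (inf_le_left.trans (map_subtype_le X))).trans h1)
    (le_norm_inf h2 (le_norm_cent (le_normalizer.trans (norm_le_norm_w _))))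
    (inf_cent_ne_bot hX' (elem_isP (w_elem _)) ((w_le _).trans h2) h0')
  have h4 := h.k3.eq_w (JC.card h.jc) ((le_inf ((ozc_le_cent (p := 2) _).trans (cent_mono (h3.ge.trans inf_le_left)))
    ((ozc_le _).trans (map_subtype_le X))).trans h1) (le_norm_ozc h2) (ozc_ne_bot hX' h0')
  have h5 := le_norm_ozc (p := 2) ((map_norm_of_injective H.subtype_injective).2 (zpowers_le.2 hn))
  rw [h4, h.norm_w, MonoidHom.map_zpowers, zpowers_le] at h5
  exact h5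

theorem iso_res : Nonempty (L₁.subgroupOf (pResidualOf 2 ⊤) ≃* Equiv.Perm (Fin 4)) := by
  set H : Subgroup G := pResidualOf 2 ⊤ with hH
  haveI : H.Normal := normal_iff_top_le.2 (self_le_norm_res ⊤)
  have hK : K₁ ≤ H := h.k3.res.ge.trans (res_mono le_top)
  obtain ⟨f, hf⟩ : ∃ f : L₁ →* Equiv.Perm (Fin 4), ∀ c, f c = 1 → ∀ x, x * c = c * x := by
    have := h.iso_p
    rw [h.l_eq] at this
    rcases this with ⟨⟨e⟩, -⟩ | ⟨⟨e⟩, -⟩
    · exact ⟨e, fun c hc x => by rw [(map_eq_one_iff e e.injective).1 hc]; simp⟩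
    · refine ⟨(MonoidHom.snd _ _).comp e.toMonoidHom, fun c hc x => e.injective ?_⟩
      rw [map_mul, map_mul]
      exact Prod.ext (mul_comm _ _) (by rw [Prod.snd_mul, Prod.snd_mul, show (e c).2 = 1 from hc]; simp)
  have c1 : Nat.card (H ⊓ L₁ : Subgroup G) = 24 := by
    have k1 := CL.Grp.card_inf_mul_relIndex H L₁
    have k2 := CL.Grp.card_inf_mul_relIndex H T
    have k3 := CL.Grp.card_mul_relIndex h.u₁.syl.le
    have k4 : H.relIndex L₁ = H.relIndex T := by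
      rw [← relIndex_sup_right L₁, ← relIndex_sup_right T, ← h.l_eq, sup_right_comm, sup_eq_right.2 hK, sup_comm]
    have k5 := h.idx_t
    rw [h.l_eq] at k5
    rw [inf_comm, h.t_inf_res, h.card_r] at k2
    rw [k5, ← k2, ← k1, k4, mul_right_comm] at k3
    exact (Nat.eq_of_mul_eq_mul_right (Nat.pos_of_ne_zero (index_ne_zero_of_finite)) k3).symm
  have h1 : Function.Injective (f.comp (inclusion (inf_le_right : H ⊓ L₁ ≤ L₁))) := by
    refine (injective_iff_map_eq_one _).2 fun c hc => Subtype.ext (mem_bot.1 (h.k3.w_inf_cent ▸ ?_))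
    have k1 : (c : G) ∈ 𝒞(L₁) := fun x hx => congrArg Subtype.val (hf _ hc ⟨x, hx⟩)
    refine mem_inf.2 ⟨h.q_inf_r.le ?_, cent_mono h.u₁.le k1⟩
    have k2 := h.cent_w.le (cent_mono ((w_le _).trans h.u₁.le) k1)
    exact mem_inf.2 ⟨k2, h.t_inf_res.le (mem_inf.2 ⟨h.lh.q_le k2, c.2.1⟩)⟩
  have h2 := MulEquiv.ofBijective _ ((Nat.bijective_iff_injective_and_card _).2
    ⟨h1, by rw [c1, Nat.card_perm]; simp [Nat.factorial]⟩)
  rw [← inf_subgroupOf_left]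
  exact ⟨(subgroupOfEquivOfLe inf_le_left).trans h2⟩

end Pr

end CL.KS12
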